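import Mathlib

set_option autoImplicit false

namespace Cfsg.Agent.Lib.Helper3

universe u

/-- Element-level hypotheses for a conjugation-invariant family of elements of prime order
closed under commuting products, with the "one or all" centralizer property. -/
structure PolarFam {G : Type u} [Group G] (p : ℕ) (D : Set G) : Prop where
  ne_one : ∀ d ∈ D, d ≠ 1
  pow_p : ∀ d ∈ D, d ^ p = 1
  pw : ∀ d ∈ D, ∀ x ∈ Subgroup.zpowers d, x ≠ 1 → x ∈ D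
  mul : ∀ a ∈ D, ∀ b ∈ D, Commute a b → b ∉ Subgroup.zpowers a →
      ∀ x ∈ Subgroup.zpowers a, ∀ y ∈ Subgroup.zpowers b, x * y ≠ 1 → x * y ∈ D
  cen : ∀ a ∈ D, ∀ b ∈ D, Commute a b → b ∉ Subgroup.zpowers a → ∀ w ∈ D,
      ∃ x ∈ Subgroup.zpowers a, ∃ y ∈ Subgroup.zpowers b, x * y ≠ 1 ∧ Commute (x * y) w
  conj : ∀ d ∈ D, ∀ g : G, g⁻¹ * d * g ∈ D

theorem polar_gen {G : Type u} [Group G] [Finite G] {p : ℕ} (hp : p.Prime) {d x : G}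
    (hd1 : d ≠ 1) (hdp : d ^ p = 1) (hx : x ∈ Subgroup.zpowers d) (hx1 : x ≠ 1) :
    d ∈ Subgroup.zpowers x := by
  have := Fact.mk hp
  have hord : orderOf d = p := orderOf_eq_prime hdp hd1
  have hcard : Nat.card (Subgroup.zpowers d) = p := by rw [Nat.card_zpowers, hord]
  have hle : Subgroup.zpowers x ≤ Subgroup.zpowers d := by
    rw [Subgroup.zpowers_le]; exact hx
  have hdvd : Nat.card (Subgroup.zpowers x) ∣ p := hcard ▸ Subgroup.card_dvd_of_le hle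
  have hne : Nat.card (Subgroup.zpowers x) ≠ 1 := by
    rw [Nat.card_zpowers]; intro h; exact hx1 (orderOf_eq_one_iff.mp h)
  have heq : Nat.card (Subgroup.zpowers x) = p := ((Nat.dvd_prime hp).mp hdvd).resolve_left hne
  have h2 : Subgroup.zpowers x = Subgroup.zpowers d :=
    Subgroup.eq_of_le_of_card_ge hle (by rw [heq, hcard])
  rw [h2]; exact Subgroup.mem_zpowers d

theorem polar_comm {G : Type u} [Group G] {a x w : G} (hx : x ∈ Subgroup.zpowers a)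
    (h : Commute a w) : Commute x w := by
  obtain ⟨k, rfl⟩ := Subgroup.mem_zpowers_iff.mp hx
  exact h.zpow_left k

theorem polar_sup_mul {G : Type u} [Group G] (X Y : Subgroup G)
    (h : ∀ x ∈ X, ∀ y ∈ Y, Commute x y) {g : G} (hg : g ∈ X ⊔ Y) :
    ∃ x ∈ X, ∃ y ∈ Y, g = x * y := by
  let T : Subgroup G :=
    { carrier := {g | ∃ x ∈ X, ∃ y ∈ Y, g = x * y}
      mul_mem' := by
        rintro _ _ ⟨x, hx, y, hy, rfl⟩ ⟨x', hx', y', hy', rfl⟩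
        refine ⟨x * x', X.mul_mem hx hx', y * y', Y.mul_mem hy hy', ?_⟩
        have h1 := (h x' hx' y hy).eq
        calc x * y * (x' * y') = x * (y * x') * y' := by simp only [mul_assoc]
          _ = x * (x' * y) * y' := by rw [h1]
          _ = x * x' * (y * y') := by simp only [mul_assoc]
      one_mem' := ⟨1, X.one_mem, 1, Y.one_mem, (mul_one 1).symm⟩
      inv_mem' := by
        rintro _ ⟨x, hx, y, hy, rfl⟩
        refine ⟨x⁻¹, X.inv_mem hx, y⁻¹, Y.inv_mem hy, ?_⟩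
        rw [mul_inv_rev]
        exact ((h x hx y hy).inv_inv).eq.symm }
  have hle : X ⊔ Y ≤ T :=
    sup_le (fun x hx => ⟨x, hx, 1, Y.one_mem, (mul_one x).symm⟩)
      (fun y hy => ⟨1, X.one_mem, y, hy, (one_mul y).symm⟩)
  exact hle hg

theorem polar_hyp {G : Type u} [Group G] [Finite G] {p : ℕ} (hp : p.Prime) {D : Set G}
    (hD : PolarFam p D) (A : Subgroup G) (hA1 : ∀ a ∈ A, a ≠ 1 → a ∈ D)
    (hA2 : ∀ a ∈ A, ∀ b ∈ A, Commute a b) {w : G} (hw : w ∈ D) {a : G} (haA : a ∈ A)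
    (haw : ¬ Commute a w) (b : G) (hb : b ∈ A) :
    ∃ x ∈ Subgroup.zpowers a, ∃ h ∈ A, Commute h w ∧ b = x * h := by
  by_cases hba : b ∈ Subgroup.zpowers a
  · exact ⟨b, hba, 1, A.one_mem, Commute.one_left w, (mul_one b).symm⟩
  · have ha1 : a ≠ 1 := by rintro rfl; exact haw (Commute.one_left w)
    have haD := hA1 a haA ha1
    have hb1 : b ≠ 1 := by rintro rfl; exact hba (Subgroup.one_mem _)
    have hbD := hA1 b hb hb1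
    obtain ⟨x, hx, y, hy, hxy1, hxyw⟩ := hD.cen a haD b hbD (hA2 a haA b hb) hba w hw
    have hxA : x ∈ A := (Subgroup.zpowers_le.mpr haA) hx
    have hyA : y ∈ A := (Subgroup.zpowers_le.mpr hb) hy
    have hy1 : y ≠ 1 := by
      rintro rfl
      rw [mul_one] at hxy1 hxyw
      have h1 : a ∈ Subgroup.zpowers x := polar_gen hp ha1 (hD.pow_p a haD) hx hxy1
      exact haw (polar_comm h1 hxyw)
    have hby : b ∈ Subgroup.zpowers y := polar_gen hp hb1 (hD.pow_p b hbD) hy hy1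
    obtain ⟨k, hk⟩ := Subgroup.mem_zpowers_iff.mp hby
    refine ⟨(x ^ k)⁻¹, (Subgroup.zpowers a).inv_mem ((Subgroup.zpowers a).zpow_mem hx k),
      (x * y) ^ k, A.zpow_mem (A.mul_mem hxA hyA) k, hxyw.zpow_left k, ?_⟩
    rw [(hA2 x hxA y hyA).mul_zpow, hk]; group

theorem polar_step {G : Type u} [Group G] [Finite G] {p : ℕ} (hp : p.Prime) {D : Set G}
    (hD : PolarFam p D) (A : Subgroup G) (hA1 : ∀ a ∈ A, a ≠ 1 → a ∈ D)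
    (hA2 : ∀ a ∈ A, ∀ b ∈ A, Commute a b) {a₁ v w₁ w₂ : G} (ha₁ : a₁ ∈ A) (hv : v ∈ A)
    (hw₁ : w₁ ∈ D) (hw₂ : w₂ ∈ D) (h1 : Commute a₁ w₁) (h2 : ¬ Commute a₁ w₂)
    (h3 : ¬ Commute v w₁) :
    ∃ w ∈ D, Commute w w₂ ∧ Commute a₁ w ∧ ¬ Commute v w := by
  have ha1 : a₁ ≠ 1 := by rintro rfl; exact h2 (Commute.one_left w₂)
  have haD := hA1 a₁ ha₁ ha1
  have hw₁a : w₁ ∉ Subgroup.zpowers a₁ := fun h =>
    h3 (hA2 v hv w₁ ((Subgroup.zpowers_le.mpr ha₁) h))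
  obtain ⟨x, hx, y, hy, hxy1, hxyw⟩ := hD.cen a₁ haD w₁ hw₁ h1 hw₁a w₂ hw₂
  have hxA : x ∈ A := (Subgroup.zpowers_le.mpr ha₁) hx
  have hy1 : y ≠ 1 := by
    rintro rfl
    rw [mul_one] at hxy1 hxyw
    have h4 : a₁ ∈ Subgroup.zpowers x := polar_gen hp ha1 (hD.pow_p a₁ haD) hx hxy1
    exact h2 (polar_comm h4 hxyw)
  refine ⟨x * y, hD.mul a₁ haD w₁ hw₁ h1 hw₁a x hx y hy hxy1, hxyw, ?_, ?_⟩
  · exact Commute.mul_right (polar_comm hx (Commute.refl a₁)).symm (polar_comm hy h1.symm).symm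
  · intro hvxy
    have hvx : Commute v x := hA2 v hv x hxA
    have hvy : Commute v y := by
      have h5 : Commute v (x⁻¹ * (x * y)) := hvx.inv_right.mul_right hvxy
      rwa [inv_mul_cancel_left] at h5
    have hw₁y : w₁ ∈ Subgroup.zpowers y :=
      polar_gen hp (hD.ne_one w₁ hw₁) (hD.pow_p w₁ hw₁) hy hy1
    exact h3 (polar_comm hw₁y hvy.symm).symm

theorem polar_quad {G : Type u} [Group G] [Finite G] {p : ℕ} (hp : p.Prime) {D : Set G}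
    (hD : PolarFam p D) (A : Subgroup G) (hA1 : ∀ a ∈ A, a ≠ 1 → a ∈ D)
    (hA2 : ∀ a ∈ A, ∀ b ∈ A, Commute a b) {a₁ a₂ w₁ w₂ : G} (ha₁ : a₁ ∈ A) (ha₂ : a₂ ∈ A)
    (hw₁ : w₁ ∈ D) (hw₂ : w₂ ∈ D) (h11 : Commute a₁ w₁) (h22 : Commute a₂ w₂)
    (h12 : ¬ Commute a₁ w₂) (h21 : ¬ Commute a₂ w₁) (hww : Commute w₁ w₂) :
    ∃ x ∈ Subgroup.zpowers a₁, x ≠ 1 ∧ x⁻¹ * w₂⁻¹ * x * w₂ ≠ 1 ∧ x⁻¹ * w₂⁻¹ * x * w₂ ∈ D ∧
      Commute (x⁻¹ * w₂⁻¹ * x * w₂) a₁ ∧ Commute (x⁻¹ * w₂⁻¹ * x * w₂) w₁ ∧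
      Commute (x⁻¹ * w₂⁻¹ * x * w₂) w₂ ∧ Commute (x⁻¹ * w₂⁻¹ * x * w₂) x := by
  have ha1 : a₁ ≠ 1 := by rintro rfl; exact h12 (Commute.one_left w₂)
  have ha2 : a₂ ≠ 1 := by rintro rfl; exact h21 (Commute.one_left w₁)
  have ha₁D := hA1 a₁ ha₁ ha1
  have ha₂D := hA1 a₂ ha₂ ha2
  have ha₂a₁ : a₂ ∉ Subgroup.zpowers a₁ := fun h => h21 (polar_comm h h11)
  have hw₂w₁ : w₂ ∉ Subgroup.zpowers w₁ := fun h => h12 (polar_comm h h11.symm).symm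
  have hww1 : w₁ * w₂ ≠ 1 := by
    intro h
    apply hw₂w₁
    have h5 : w₂ = w₁⁻¹ := by rw [eq_inv_iff_mul_eq_one, ← hww.eq]; exact h
    rw [h5]; exact (Subgroup.zpowers w₁).inv_mem (Subgroup.mem_zpowers w₁)
  have hwwD : w₁ * w₂ ∈ D :=
    hD.mul w₁ hw₁ w₂ hw₂ hww hw₂w₁ w₁ (Subgroup.mem_zpowers w₁) w₂ (Subgroup.mem_zpowers w₂) hww1
  obtain ⟨x, hx, y, hy, hxy1, hxyw⟩ :=
    hD.cen a₁ ha₁D a₂ ha₂D (hA2 a₁ ha₁ a₂ ha₂) ha₂a₁ (w₁ * w₂) hwwD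
  have hxA : x ∈ A := (Subgroup.zpowers_le.mpr ha₁) hx
  have hyA : y ∈ A := (Subgroup.zpowers_le.mpr ha₂) hy
  have hxw₁ : Commute x w₁ := polar_comm hx h11
  have hyw₂ : Commute y w₂ := polar_comm hy h22
  have hxy : Commute x y := hA2 x hxA y hyA
  have E : x * w₂ * (y * w₁) = w₂ * x * (w₁ * y) := by
    calc x * w₂ * (y * w₁) = x * (w₂ * y) * w₁ := by simp only [mul_assoc]
      _ = x * (y * w₂) * w₁ := by rw [hyw₂.eq]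
      _ = x * y * (w₂ * w₁) := by simp only [mul_assoc]
      _ = x * y * (w₁ * w₂) := by rw [hww.eq]
      _ = w₁ * w₂ * (x * y) := hxyw.eq
      _ = w₂ * w₁ * (x * y) := by rw [hww.eq]
      _ = w₂ * (w₁ * x) * y := by simp only [mul_assoc]
      _ = w₂ * (x * w₁) * y := by rw [hxw₁.eq]
      _ = w₂ * x * (w₁ * y) := by simp only [mul_assoc]
  have key : x⁻¹ * w₂⁻¹ * x * w₂ = w₁ * y * w₁⁻¹ * y⁻¹ := by
    calc x⁻¹ * w₂⁻¹ * x * w₂ = (w₂ * x)⁻¹ * (x * w₂ * (y * w₁)) * (y * w₁)⁻¹ := by group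
      _ = (w₂ * x)⁻¹ * (w₂ * x * (w₁ * y)) * (y * w₁)⁻¹ := by rw [E]
      _ = w₁ * y * w₁⁻¹ * y⁻¹ := by group
  have hcomm_of : x⁻¹ * w₂⁻¹ * x * w₂ = 1 → Commute x w₂ := by
    intro h
    have h5 : x * w₂ = w₂ * x := by
      calc x * w₂ = w₂ * x * (x⁻¹ * w₂⁻¹ * x * w₂) := by group
        _ = w₂ * x := by rw [h, mul_one]
    exact h5
  have hx1 : x ≠ 1 := by
    rintro rfl
    rw [one_mul] at hxy1
    have h5 : w₁ * y * w₁⁻¹ * y⁻¹ = 1 := by rw [← key]; group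
    have h6 : Commute y w₁ := by
      have h7 : y * w₁ = w₁ * y := by
        calc y * w₁ = (w₁ * y * w₁⁻¹ * y⁻¹)⁻¹ * (w₁ * y) := by group
          _ = w₁ * y := by rw [h5, inv_one, one_mul]
      exact h7
    have h8 : a₂ ∈ Subgroup.zpowers y := polar_gen hp ha2 (hD.pow_p a₂ ha₂D) hy hxy1
    exact h21 (polar_comm h8 h6)
  have hxw₂ : ¬ Commute x w₂ := fun h =>
    h12 (polar_comm (polar_gen hp ha1 (hD.pow_p a₁ ha₁D) hx hx1) h)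
  have hc1 : x⁻¹ * w₂⁻¹ * x * w₂ ≠ 1 := fun h => hxw₂ (hcomm_of h)
  have hca₁ : Commute (x⁻¹ * w₂⁻¹ * x * w₂) a₁ := by
    rw [key]
    have e1 : Commute a₁ w₁ := h11
    have e2 : Commute a₁ y := hA2 a₁ ha₁ y hyA
    exact (((e1.mul_right e2).mul_right e1.inv_right).mul_right e2.inv_right).symm
  have hcw₁ : Commute (x⁻¹ * w₂⁻¹ * x * w₂) w₁ := by
    have e1 : Commute w₁ x := hxw₁.symm
    have e2 : Commute w₁ w₂ := hww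
    exact (((e1.inv_right.mul_right e2.inv_right).mul_right e1).mul_right e2).symm
  have hcw₂ : Commute (x⁻¹ * w₂⁻¹ * x * w₂) w₂ := by
    rw [key]
    have e1 : Commute w₂ w₁ := hww.symm
    have e2 : Commute w₂ y := hyw₂.symm
    exact (((e1.mul_right e2).mul_right e1.inv_right).mul_right e2.inv_right).symm
  have hcx : Commute (x⁻¹ * w₂⁻¹ * x * w₂) x := (polar_comm hx hca₁.symm).symm
  have hxD : x ∈ D := hD.pw a₁ ha₁D x hx hx1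
  have hx'D : w₂⁻¹ * x * w₂ ∈ D := hD.conj x hxD w₂
  have hxx' : Commute x (w₂⁻¹ * x * w₂) := by
    have h5 : w₂⁻¹ * x * w₂ = x * (x⁻¹ * w₂⁻¹ * x * w₂) := by group
    rw [h5]
    exact (Commute.refl x).mul_right hcx.symm
  have hx'x : w₂⁻¹ * x * w₂ ∉ Subgroup.zpowers x := by
    intro h
    have h5 : x⁻¹ * w₂⁻¹ * x * w₂ ∈ Subgroup.zpowers x := by
      have h6 : x⁻¹ * w₂⁻¹ * x * w₂ = x⁻¹ * (w₂⁻¹ * x * w₂) := by group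
      rw [h6]
      exact (Subgroup.zpowers x).mul_mem ((Subgroup.zpowers x).inv_mem (Subgroup.mem_zpowers x)) h
    have h7 : x ∈ Subgroup.zpowers (x⁻¹ * w₂⁻¹ * x * w₂) :=
      polar_gen hp hx1 (hD.pow_p x hxD) h5 hc1
    exact hxw₂ (polar_comm h7 hcw₂)
  have hcD : x⁻¹ * w₂⁻¹ * x * w₂ ∈ D := by
    have h6 : x⁻¹ * w₂⁻¹ * x * w₂ = x⁻¹ * (w₂⁻¹ * x * w₂) := by group
    rw [h6]
    refine hD.mul x hxD _ hx'D hxx' hx'x x⁻¹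
      ((Subgroup.zpowers x).inv_mem (Subgroup.mem_zpowers x)) _ (Subgroup.mem_zpowers _) ?_
    rw [← h6]; exact hc1
  exact ⟨x, hx, hx1, hc1, hcD, hca₁, hcw₁, hcw₂, hcx⟩

theorem polar_ext {G : Type u} [Group G] {p : ℕ} {D : Set G}
    (hD : PolarFam p D) (A : Subgroup G) (hA1 : ∀ a ∈ A, a ≠ 1 → a ∈ D)
    (hA2 : ∀ a ∈ A, ∀ b ∈ A, Commute a b) {d : G} (hd : d ∈ D)
    (hdc : ∀ a ∈ A, Commute d a) (hdA : d ∉ A) :
    ∃ A' : Subgroup G, A ≤ A' ∧ d ∈ A' ∧ (∀ a ∈ A', a ≠ 1 → a ∈ D) ∧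
      (∀ a ∈ A', ∀ b ∈ A', Commute a b) := by
  have hcm : ∀ a ∈ A, ∀ y ∈ Subgroup.zpowers d, Commute a y := fun a ha y hy =>
    (polar_comm hy (hdc a ha)).symm
  refine ⟨A ⊔ Subgroup.zpowers d, le_sup_left,
    (le_sup_right : Subgroup.zpowers d ≤ A ⊔ Subgroup.zpowers d) (Subgroup.mem_zpowers d), ?_, ?_⟩
  · intro g hg hg1
    obtain ⟨a, ha, y, hy, rfl⟩ := polar_sup_mul A (Subgroup.zpowers d) hcm hg
    by_cases ha1 : a = 1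
    · subst ha1
      rw [one_mul] at hg1 ⊢
      exact hD.pw d hd y hy hg1
    · have haD := hA1 a ha ha1
      refine hD.mul a haD d hd (hdc a ha).symm ?_ a (Subgroup.mem_zpowers a) y hy hg1
      exact fun h => hdA ((Subgroup.zpowers_le.mpr ha) h)
  · intro g hg g' hg'
    obtain ⟨a, ha, y, hy, rfl⟩ := polar_sup_mul A (Subgroup.zpowers d) hcm hg
    obtain ⟨a', ha', y', hy', rfl⟩ := polar_sup_mul A (Subgroup.zpowers d) hcm hg'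
    have hyy' : Commute y y' := polar_comm hy (polar_comm hy' (Commute.refl d)).symm
    exact Commute.mul_left ((hA2 a ha a' ha').mul_right (hcm a ha y' hy'))
      ((hcm a' ha' y hy).symm.mul_right hyy')

theorem polar_exists_max {G : Type u} [Group G] [Finite G] {p : ℕ} {D : Set G}
    (hD : PolarFam p D) {a₀ b₀ : G} (ha₀ : a₀ ∈ D) (hb₀ : b₀ ∈ D) (hab : Commute a₀ b₀)
    (hba : b₀ ∉ Subgroup.zpowers a₀) :
    ∃ A : Subgroup G, a₀ ∈ A ∧ b₀ ∈ A ∧ (∀ a ∈ A, a ≠ 1 → a ∈ D) ∧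
      (∀ a ∈ A, ∀ b ∈ A, Commute a b) ∧ (∀ d ∈ D, (∀ a ∈ A, Commute d a) → d ∈ A) := by
  obtain ⟨A₀, hA₀le, hb₀A₀, hA₀1, hA₀2⟩ := polar_ext hD (Subgroup.zpowers a₀)
    (fun a ha ha1 => hD.pw a₀ ha₀ a ha ha1)
    (fun a ha b hb => polar_comm ha (polar_comm hb (Commute.refl a₀)).symm) hb₀
    (fun a ha => (polar_comm ha hab).symm) hba
  obtain ⟨S, hS⟩ : ∃ S : Set (Subgroup G), S = {A | a₀ ∈ A ∧ b₀ ∈ A ∧
      (∀ a ∈ A, a ≠ 1 → a ∈ D) ∧ (∀ a ∈ A, ∀ b ∈ A, Commute a b)} := ⟨_, rfl⟩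
  have hA₀S : A₀ ∈ S := by
    rw [hS]; exact ⟨hA₀le (Subgroup.mem_zpowers a₀), hb₀A₀, hA₀1, hA₀2⟩
  obtain ⟨A, -, hAmax⟩ := (Set.toFinite S).exists_le_maximal hA₀S
  have hAS : A ∈ S := hAmax.1
  rw [hS] at hAS
  obtain ⟨h1, h2, h3, h4⟩ := hAS
  refine ⟨A, h1, h2, h3, h4, ?_⟩
  intro d hd hdc
  by_contra hdA
  obtain ⟨A', hAA', hdA', hA'1, hA'2⟩ := polar_ext hD A h3 h4 hd hdc hdA
  have hA'S : A' ∈ S := by rw [hS]; exact ⟨hAA' h1, hAA' h2, hA'1, hA'2⟩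
  exact hdA (hAmax.2 hA'S hAA' hdA')

/-- Main abstract result: some member of the family commutes with all of it. -/
theorem polar_central {G : Type u} [Group G] [Finite G] {p : ℕ} (hp : p.Prime) {D : Set G}
    (hD : PolarFam p D) (hex : ∃ a ∈ D, ∃ b ∈ D, Commute a b ∧ b ∉ Subgroup.zpowers a) :
    ∃ v ∈ D, ∀ w ∈ D, Commute v w := by
  by_contra hcon
  push Not at hcon
  obtain ⟨a₀, ha₀, b₀, hb₀, hab, hb₀a⟩ := hex
  obtain ⟨A, ha₀A, hb₀A, hA1, hA2, hA3⟩ := polar_exists_max hD ha₀ hb₀ hab hb₀a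
  obtain ⟨w₂, hw₂, h02⟩ := hcon a₀ ha₀
  obtain ⟨x0, hx0, y0, hy0, hv1, hvw₂⟩ := hD.cen a₀ ha₀ b₀ hb₀ hab hb₀a w₂ hw₂
  have hvA : x0 * y0 ∈ A :=
    A.mul_mem ((Subgroup.zpowers_le.mpr ha₀A) hx0) ((Subgroup.zpowers_le.mpr hb₀A) hy0)
  obtain ⟨v, hv⟩ : ∃ v, v = x0 * y0 := ⟨_, rfl⟩
  rw [← hv] at hv1 hvw₂ hvA
  have hvD := hA1 v hvA hv1
  obtain ⟨w₁, hw₁, hvw₁⟩ := hcon v hvD
  obtain ⟨xx, hxx, a₁, ha₁A, ha₁w₁, hdecomp⟩ :=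
    polar_hyp hp hD A hA1 hA2 hw₁ hvA hvw₁ a₀ ha₀A
  have ha₁w₂ : ¬ Commute a₁ w₂ := by
    intro h
    apply h02
    rw [hdecomp]
    exact (polar_comm hxx hvw₂).mul_left h
  obtain ⟨w₁', hw₁', hw₁'w₂, ha₁w₁', hvw₁'⟩ :=
    polar_step hp hD A hA1 hA2 ha₁A hvA hw₁ hw₂ ha₁w₁ ha₁w₂ hvw₁
  obtain ⟨x, hx, hx1, hc1, hcD, hca₁, hcw₁', hcw₂, hcx⟩ :=
    polar_quad hp hD A hA1 hA2 ha₁A hvA hw₁' hw₂ ha₁w₁' hvw₂ ha₁w₂ hvw₁' hw₁'w₂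
  obtain ⟨c, hc⟩ : ∃ c, c = x⁻¹ * w₂⁻¹ * x * w₂ := ⟨_, rfl⟩
  rw [← hc] at hc1 hcD hca₁ hcw₁' hcw₂ hcx
  have hxA : x ∈ A := (Subgroup.zpowers_le.mpr ha₁A) hx
  have ha₁1 : a₁ ≠ 1 := by rintro rfl; exact ha₁w₂ (Commute.one_left w₂)
  have hxw₂ : ¬ Commute x w₂ := fun h =>
    ha₁w₂ (polar_comm (polar_gen hp ha₁1 (hD.pow_p a₁ (hA1 a₁ ha₁A ha₁1)) hx hx1) h)
  have hcA : c ∈ A := by
    apply hA3 c hcD
    intro b hb
    obtain ⟨x', hx', h, hhA, hhw₂, rfl⟩ := polar_hyp hp hD A hA1 hA2 hw₂ ha₁A ha₁w₂ b hb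
    refine Commute.mul_right ((polar_comm hx' hca₁.symm).symm) ?_
    rw [hc]
    have hhx : Commute h x := hA2 h hhA x hxA
    exact ((((hhx.inv_right).mul_right hhw₂.inv_right).mul_right hhx).mul_right hhw₂).symm
  have hform : ∀ b ∈ A, b⁻¹ * w₂⁻¹ * b * w₂ ∈ Subgroup.zpowers c := by
    intro b hb
    obtain ⟨x', hx', h, hhA, hhw₂, rfl⟩ := polar_hyp hp hD A hA1 hA2 hw₂ hxA hxw₂ b hb
    obtain ⟨k, rfl⟩ := Subgroup.mem_zpowers_iff.mp hx'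
    refine Subgroup.mem_zpowers_iff.mpr ⟨k, ?_⟩
    have h1 : w₂⁻¹ * x * w₂ = x * c := by rw [hc]; group
    have h2 : w₂⁻¹ * x ^ k * w₂ = x ^ k * c ^ k := by
      have h4 : w₂⁻¹ * x ^ k * w₂ = (w₂⁻¹ * x * w₂) ^ k := by
        have h5 := conj_zpow (a := w₂⁻¹) (b := x) (i := k)
        rw [inv_inv] at h5
        exact h5.symm
      rw [h4, h1, hcx.symm.mul_zpow]
    have hhc : Commute h c := hA2 h hhA c hcA
    have h3 : w₂⁻¹ * h * w₂ = h := by rw [mul_assoc, hhw₂.eq, inv_mul_cancel_left]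
    calc c ^ k = h⁻¹ * ((x ^ k)⁻¹ * (x ^ k * c ^ k)) * h := by
          rw [inv_mul_cancel_left]; exact ((hhc.zpow_right k).inv_mul_cancel).symm
      _ = h⁻¹ * ((x ^ k)⁻¹ * (w₂⁻¹ * x ^ k * w₂)) * (w₂⁻¹ * h * w₂) := by rw [h2, h3]
      _ = (x ^ k * h)⁻¹ * w₂⁻¹ * (x ^ k * h) * w₂ := by group
  obtain ⟨w₃, hw₃, hcw₃⟩ := hcon c hcD
  obtain ⟨x'', hx'', a₃, ha₃A, ha₃w₃, hdec3⟩ :=
    polar_hyp hp hD A hA1 hA2 hw₃ hcA hcw₃ a₁ ha₁A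
  have ha₃w₂ : ¬ Commute a₃ w₂ := by
    intro h
    apply ha₁w₂
    rw [hdec3]
    exact (polar_comm hx'' hcw₂).mul_left h
  obtain ⟨w₃', hw₃', hw₃'w₂, ha₃w₃', hcw₃'⟩ :=
    polar_step hp hD A hA1 hA2 ha₃A hcA hw₃ hw₂ ha₃w₃ ha₃w₂ hcw₃
  obtain ⟨x₃, hx₃, hx₃1, he1, heD, hea₃, hew₃', hew₂, hex₃⟩ :=
    polar_quad hp hD A hA1 hA2 ha₃A hcA hw₃' hw₂ ha₃w₃' hcw₂ ha₃w₂ hcw₃' hw₃'w₂
  have hx₃A : x₃ ∈ A := (Subgroup.zpowers_le.mpr ha₃A) hx₃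
  have hmem := hform x₃ hx₃A
  have hce : c ∈ Subgroup.zpowers (x₃⁻¹ * w₂⁻¹ * x₃ * w₂) :=
    polar_gen hp hc1 (hD.pow_p c hcD) hmem he1
  exact hcw₃' (polar_comm hce hew₃')

end Cfsg.Agent.Lib.Helper3
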